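import Cfsg.Agent.H879.E83.PNine

/-!
# S5925, box H: the statement of the kernel search

`Search F g` : every input `PNine g q` of the search is `c κ(l) q⁎ κ(l)` with `q⁎ a b = g ^ (Q0E a b)`.
-/

set_option autoImplicit false

namespace Cfsg.Agent.H947.P9

open Cfsg.Agent.H879.E83

/-- The exponents of the model. -/
def Q0E : Fin 5 → Fin 5 → ℕ :=
  ![![63, 0, 4, 35, 72], ![0, 1, 10, 44, 4], ![4, 10, 3, 42, 5], ![35, 44, 42, 65, 33], ![72, 4, 5, 33, 65]]

/-- The exponents of `κ`. -/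
def KE : Fin 5 → ℕ := ![1, 0, 71, 44, 4]

/-- The conclusion of the search. -/
def Concl {F : Type*} [Field F] (g : F) (q : Mt F) : Prop :=
  ∃ l c : F, l ^ 80 = 1 ∧ c ^ 10 = 1 ∧ ∀ a b, q a b = c * (l ^ KE a * l ^ KE b * g ^ Q0E a b)

/-- The normalised conclusion (after the gauge). -/
def NConcl {F : Type*} [Field F] (g : F) (q : Mt F) : Prop := ∀ a b, q a b = g ^ Q0E a b

/-- **The statement of box H.** -/
def Search.{u} (F : Type u) [Field F] [CharP F 3] (g : F) : Prop :=
  g ^ 4 = 1 - g → ∀ q : Mt F, PNine g q → Concl g q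

end Cfsg.Agent.H947.P9
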