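import Cfsg.Agent.H780.P9.Final
import Cfsg.Agent.H908.P9.Run.All

/-!
# S5925, box H: the kernel search is complete
-/

set_option autoImplicit false

namespace Cfsg.Agent.H947.P9

/-- **Box H.** -/
theorem search.{u} (F : Type u) [Field F] [CharP F 3] (g : F) : Search F g :=
  Cfsg.Agent.H780.P9.search_of_runs Cfsg.Agent.H908.P9.Run.rng_all F g

end Cfsg.Agent.H947.P9
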